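import Cfsg.Agent.TTClass.OrthModels

/-!
Vanishing of the first cohomology of the commutator subgroup of an orthogonal group over the field
with two elements on its natural module, by means of a connected family of transvections.

For adjacent non-singular vectors `u`, `v` the product `p = t_u t_v` has order three, and the value
of a crossed homomorphism at `p` determines a scalar at each vertex. The relation
`(t_u t_w)^2 = 1` shows that this scalar only depends on the vertex.
-/

set_option autoImplicit false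
set_option maxHeartbeats 1000000

namespace Cfsg.Agent.OmegaTwo

open Cfsg.Agent.TTClass.OrthF2 Cfsg.Agent.TTClass
open Matrix Module

variable {ι : Type} [Fintype ι] [DecidableEq ι] {Q : (ι → ZMod 2) → ZMod 2}
  {B : (ι → ZMod 2) →ₗ[ZMod 2] (ι → ZMod 2) →ₗ[ZMod 2] ZMod 2}

local notation "act" => OrthModels.rho

theorem add_cancel_self {M : Type*} [AddCommGroup M] [Module (ZMod 2) M] (x y : M) :
    x + (x + y) = y := by
  rw [← add_assoc, ZModModule.add_self, zero_add]

open Classical in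
/-- The element of the isometry group acting as the transvection along `u`. -/
noncomputable def tr (Q : (ι → ZMod 2) → ZMod 2)
    (B : (ι → ZMod 2) →ₗ[ZMod 2] (ι → ZMod 2) →ₗ[ZMod 2] ZMod 2) (u : ι → ZMod 2) :
    ↥(Cfsg.isometryGroup (ZMod 2) Q) :=
  if h : ∃ g, act Q g = tv B u then h.choose else 1

theorem act_tr (h : IsQF Q B) {u : ι → ZMod 2} (hu : Q u = 1) : act Q (tr Q B u) = tv B u := by
  have he : ∃ g, act Q g = tv B u := by
    have := tv_mem h hu
    rwa [← OrthModels.rho_range] at this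
  rw [tr, dif_pos he]
  exact he.choose_spec

attribute [irreducible] tr

theorem act_mem (g : ↥(Cfsg.isometryGroup (ZMod 2) Q)) : act Q g ∈ Iso Q :=
  OrthModels.rho_range Q ▸ ⟨g, rfl⟩

theorem polar_act (h : IsQF Q B) (g : ↥(Cfsg.isometryGroup (ZMod 2) Q)) (x y : ι → ZMod 2) :
    B (act Q g x) (act Q g y) = B x y :=
  iso_B h (act_mem g) x y

theorem tr_mul_self (h : IsQF Q B) {u : ι → ZMod 2} (hu : Q u = 1) : tr Q B u * tr Q B u = 1 :=
  OrthModels.rho_injective Q (by rw [map_mul, map_one, act_tr h hu, tv_mul_self h])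

theorem Q_sum (h : IsQF Q B) {u v : ι → ZMod 2} (hu : Q u = 1) (hv : Q v = 1) (huv : B u v = 1) :
    Q (u + v) = 1 := by
  rw [h.add, hu, hv, huv]; decide

theorem tr_conj (h : IsQF Q B) {u v : ι → ZMod 2} (hu : Q u = 1) (hv : Q v = 1) (huv : B u v = 1) :
    tr Q B v * tr Q B u * tr Q B v = tr Q B (u + v) :=
  OrthModels.rho_injective Q <| by
    rw [map_mul, map_mul, act_tr h hu, act_tr h hv, act_tr h (Q_sum h hu hv huv)]
    apply LinearEquiv.ext
    intro x
    simp only [LinearEquiv.mul_apply, tv_apply h, map_add, map_smul, LinearMap.add_apply,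
      LinearMap.smul_apply, smul_eq_mul, h.self, h.symm v u, huv]
    rcases z2 (B x u) with a | a <;> rcases z2 (B x v) with b | b <;> rw [a, b] <;>
      simp [add_assoc, add_comm, add_left_comm, CharTwo.add_self_eq_zero, add_cancel_self,
        ZModModule.add_self]

theorem tr_inv (h : IsQF Q B) {u : ι → ZMod 2} (hu : Q u = 1) : (tr Q B u)⁻¹ = tr Q B u :=
  inv_eq_of_mul_eq_one_right (tr_mul_self h hu)

open scoped commutatorElement in
theorem pair_mem (h : IsQF Q B) {u v : ι → ZMod 2} (hu : Q u = 1) (hv : Q v = 1) (huv : B u v = 1) :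
    tr Q B u * tr Q B v ∈ Cfsg.Omega (ZMod 2) Q := by
  have hw := Q_sum h hu hv huv
  have hc : tr Q B (u + v) * tr Q B u * tr Q B (u + v) = tr Q B v := by
    rw [tr_conj h hu hw (by rw [map_add, h.self, huv, zero_add]), ← add_assoc, add_self', zero_add]
  have e : ⁅tr Q B u, tr Q B (u + v)⁆ = tr Q B u * tr Q B v := by
    rw [commutatorElement_def, tr_inv h hu, tr_inv h hw, ← hc]
    group
  rw [← e]
  exact Subgroup.commutator_mem_commutator (Subgroup.mem_top _) (Subgroup.mem_top _)

section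

variable (h : IsQF Q B) (f : ↥(Cfsg.Omega (ZMod 2) Q) → (ι → ZMod 2))

open Classical in
/-- The product of two transvections, in the commutator subgroup. -/
noncomputable def pr (Q : (ι → ZMod 2) → ZMod 2)
    (B : (ι → ZMod 2) →ₗ[ZMod 2] (ι → ZMod 2) →ₗ[ZMod 2] ZMod 2) (u v : ι → ZMod 2) :
    ↥(Cfsg.Omega (ZMod 2) Q) :=
  if h : tr Q B u * tr Q B v ∈ Cfsg.Omega (ZMod 2) Q then ⟨_, h⟩ else 1

/-- The scalar at `v` read off from the edge `u v`. -/
noncomputable def delta (B : (ι → ZMod 2) →ₗ[ZMod 2] (ι → ZMod 2) →ₗ[ZMod 2] ZMod 2)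
    (f : ↥(Cfsg.Omega (ZMod 2) Q) → (ι → ZMod 2)) (v u : ι → ZMod 2) : ZMod 2 :=
  B (f (pr Q B u v)) u

include h

theorem coe_pr {u v : ι → ZMod 2} (hu : Q u = 1) (hv : Q v = 1) (huv : B u v = 1) :
    (pr Q B u v : ↥(Cfsg.isometryGroup (ZMod 2) Q)) = tr Q B u * tr Q B v := by
  rw [pr, dif_pos (pair_mem h hu hv huv)]

theorem act_pr {u v : ι → ZMod 2} (hu : Q u = 1) (hv : Q v = 1) (huv : B u v = 1) (x : ι → ZMod 2) :
    act Q (pr Q B u v : ↥(Cfsg.isometryGroup (ZMod 2) Q)) x
      = x + B x v • v + (B x u + B x v) • u := by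
  rw [coe_pr h hu hv huv, map_mul, LinearEquiv.mul_apply, act_tr h hu, act_tr h hv]
  simp only [tv_apply h, map_add, map_smul, LinearMap.add_apply, LinearMap.smul_apply, smul_eq_mul,
    h.symm v u, huv, mul_one]

theorem pr_shift {u v : ι → ZMod 2} (hu : Q u = 1) (hv : Q v = 1) (huv : B u v = 1) :
    pr Q B v (u + v) = pr Q B u v := by
  have hw := Q_sum h hu hv huv
  have hvw : B v (u + v) = 1 := by rw [map_add, h.symm v u, huv, h.self, add_zero]
  refine Subtype.ext ?_
  rw [coe_pr h hu hv huv, coe_pr h hv hw hvw, ← tr_conj h hu hv huv, ← mul_assoc, ← mul_assoc,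
    tr_mul_self h hv, one_mul]

theorem pr_swap {u v : ι → ZMod 2} (hu : Q u = 1) (hv : Q v = 1) (huv : B u v = 1) :
    pr Q B v u = (pr Q B u v)⁻¹ := by
  refine Subtype.ext ?_
  rw [Subgroup.coe_inv, coe_pr h hu hv huv, coe_pr h hv hu (by rw [h.symm v u, huv]),
    _root_.mul_inv_rev, tr_inv h hu, tr_inv h hv]

theorem pr_cube {u v : ι → ZMod 2} (hu : Q u = 1) (hv : Q v = 1) (huv : B u v = 1) :
    pr Q B u v * pr Q B u v * pr Q B u v = 1 := by
  refine Subtype.ext ?_
  have hw := Q_sum h hu hv huv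
  simp only [Subgroup.coe_mul, Subgroup.coe_one, coe_pr h hu hv huv]
  have e1 := tr_conj h hu hv huv
  have e2 := tr_conj h hv hu (by rw [h.symm v u, huv])
  rw [add_comm v u, ← e1] at e2
  calc tr Q B u * tr Q B v * (tr Q B u * tr Q B v) * (tr Q B u * tr Q B v)
      = (tr Q B u * tr Q B v * tr Q B u) * (tr Q B v * tr Q B u * tr Q B v) := by group
    _ = 1 := by rw [e2, e1, tr_mul_self h hw]

variable {f}
variable (hf : ∀ a b, f (a * b) = f a + act Q (a : ↥(Cfsg.isometryGroup (ZMod 2) Q)) (f b))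
include hf

theorem map_one' : f 1 = 0 := by
  have := hf 1 1
  rw [mul_one, Subgroup.coe_one, map_one] at this
  exact left_eq_add.1 this

theorem map_inv' (a : ↥(Cfsg.Omega (ZMod 2) Q)) :
    f a⁻¹ = act Q (a : ↥(Cfsg.isometryGroup (ZMod 2) Q))⁻¹ (f a) := by
  have := hf a⁻¹ a
  rw [inv_mul_cancel, map_one' h hf, Subgroup.coe_inv] at this
  exact add_eq_zero_iff_eq_neg.1 this.symm |>.trans (ZModModule.neg_eq_self _)

theorem value {u v : ι → ZMod 2} (hu : Q u = 1) (hv : Q v = 1) (huv : B u v = 1) :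
    f (pr Q B u v) = B (f (pr Q B u v)) u • v + B (f (pr Q B u v)) v • u := by
  have h3 := hf (pr Q B u v * pr Q B u v) (pr Q B u v)
  rw [pr_cube h hu hv huv, map_one' h hf, hf, Subgroup.coe_mul, map_mul, LinearEquiv.mul_apply,
    act_pr h hu hv huv, act_pr h hu hv huv] at h3
  generalize f (pr Q B u v) = x at h3 ⊢
  rw [← sub_eq_zero, ZModModule.sub_eq_add]
  simp only [map_add, map_smul, LinearMap.add_apply, LinearMap.smul_apply, smul_eq_mul, h.self,
    h.symm v u, huv] at h3
  rcases z2 (B x u) with a | a <;> rcases z2 (B x v) with b | b <;> rw [a, b] at h3 ⊢ <;>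
    simp [add_assoc, add_comm, add_left_comm, CharTwo.add_self_eq_zero, add_cancel_self,
        ZModModule.add_self] at h3 ⊢ <;>
    exact h3.symm

theorem delta_sum {u v : ι → ZMod 2} (hu : Q u = 1) (hv : Q v = 1) (huv : B u v = 1) :
    delta B f u v = delta B f v u + B (f (pr Q B u v)) v ∧
      delta B f v (u + v) = delta B f v u ∧ delta B f (u + v) v = B (f (pr Q B u v)) v := by
  set p := pr Q B u v with hp
  have key : ∀ y, B (act Q (p : ↥(Cfsg.isometryGroup (ZMod 2) Q))⁻¹ (f p)) y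
      = B (f p) (act Q (p : ↥(Cfsg.isometryGroup (ZMod 2) Q)) y) := fun y => by
    conv_rhs => rw [← polar_act h (p : ↥(Cfsg.isometryGroup (ZMod 2) Q))⁻¹, ← LinearEquiv.mul_apply,
      ← map_mul, inv_mul_cancel, map_one]
    rfl
  have hw := Q_sum h hu hv huv
  have hwv : B (u + v) v = 1 := by rw [map_add, LinearMap.add_apply, h.self, huv, add_zero]
  refine ⟨?_, ?_, by rw [delta, pr_shift h hu hv huv]⟩
  · rw [delta, delta, pr_swap h hu hv huv, map_inv' h hf, key, hp, act_pr h hu hv huv, h.self,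
      h.symm v u, huv]
    simp [add_comm]
  · rw [delta, delta, pr_swap h hv hw (by rw [h.symm, hwv]), pr_shift h hu hv huv, map_inv' h hf,
      key, act_pr h hu hv huv]
    simp [h.self, h.symm v u, huv, ← hp, add_assoc, add_comm, add_left_comm,
      CharTwo.add_self_eq_zero]

theorem delta_eq_of_orth {u v w : ι → ZMod 2} (hu : Q u = 1) (hv : Q v = 1) (hw : Q w = 1)
    (huv : B u v = 1) (hwv : B w v = 1) (huw : B u w = 0) (hne : u ≠ w) :
    delta B f v u = delta B f v w := by
  have hvw : B v w = 1 := by rw [h.symm, hwv]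
  have e : ((pr Q B u v * pr Q B v w : ↥(Cfsg.Omega (ZMod 2) Q)) :
      ↥(Cfsg.isometryGroup (ZMod 2) Q)) = tr Q B u * tr Q B w := by
    rw [Subgroup.coe_mul, coe_pr h hu hv huv, coe_pr h hv hw hvw, mul_assoc, ← mul_assoc (tr Q B v),
      tr_mul_self h hv, one_mul]
  have hq : (pr Q B u v * pr Q B v w) * (pr Q B u v * pr Q B v w) = 1 := by
    refine Subtype.ext ?_
    rw [Subgroup.coe_mul, e, Subgroup.coe_one]
    refine OrthModels.rho_injective Q ?_
    simp only [map_mul, map_one, act_tr h hu, act_tr h hw]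
    apply LinearEquiv.ext
    intro x
    simp only [LinearEquiv.mul_apply, tv_apply h, map_add, map_smul, LinearMap.add_apply,
      LinearMap.smul_apply, smul_eq_mul, h.self, h.symm w u, huw, mul_zero, add_zero]
    show _ = x
    rcases z2 (B x u) with a | a <;> rcases z2 (B x w) with b | b <;> rw [a, b] <;>
      simp [add_assoc, add_comm, add_left_comm, CharTwo.add_self_eq_zero, add_cancel_self,
        ZModModule.add_self]
  have h2 := hf (pr Q B u v * pr Q B v w) (pr Q B u v * pr Q B v w)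
  rw [hq, map_one' h hf, e, map_mul (act Q) (tr Q B u), act_tr h hu, act_tr h hw, hf,
    act_pr h hu hv huv] at h2
  have hd : delta B f v w = delta B f w v + B (f (pr Q B v w)) w := (delta_sum h hf hv hw hvw).1
  rw [hd, delta, delta]
  have hx := value h hf hu hv huv
  have hy := value h hf hv hw hvw
  generalize B (f (pr Q B u v)) u = a, B (f (pr Q B u v)) v = b at hx
  generalize B (f (pr Q B v w)) v = c, B (f (pr Q B v w)) w = d at hy ⊢
  rw [hx, hy] at h2
  simp only [LinearEquiv.mul_apply, tv_apply h, map_add, map_smul, LinearMap.add_apply,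
    LinearMap.smul_apply, smul_eq_mul, h.self, h.symm v u, h.symm w u, huv, huw, hvw, hwv] at h2
  have hne' : u + w ≠ 0 := fun e => hne (sub_eq_zero.1 (by rwa [ZModModule.sub_eq_add]))
  rcases z2 a with rfl | rfl <;> rcases z2 b with rfl | rfl <;> rcases z2 c with rfl | rfl <;>
    rcases z2 d with rfl | rfl <;>
    simp [add_assoc, add_comm, add_left_comm, CharTwo.add_self_eq_zero, add_cancel_self,
        ZModModule.add_self] at h2 ⊢ <;>
    first
    | exact hne' h2
    | exact hne' h2.symm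
    | exact hne' (by rw [add_comm]; exact h2)

theorem delta_unique {u v w : ι → ZMod 2} (hu : Q u = 1) (hv : Q v = 1) (hw : Q w = 1)
    (huv : B u v = 1) (hwv : B w v = 1) : delta B f v u = delta B f v w := by
  by_cases h0 : w = u
  · rw [h0]
  by_cases h1 : w = u + v
  · rw [h1, (delta_sum h hf hu hv huv).2.1]
  rcases z2 (B u w) with huw | huw
  · exact delta_eq_of_orth h hf hu hv hw huv hwv huw (Ne.symm h0)
  have hnot : v ∉ Submodule.span (ZMod 2) ({u, w} : Set (ι → ZMod 2)) := by
    rw [Submodule.mem_span_pair]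
    rintro ⟨a, b, e⟩
    rcases z2 a with rfl | rfl <;> rcases z2 b with rfl | rfl <;> simp at e
    · exact h.ne_zero hv e.symm
    · rw [e, h.self] at hwv; exact zero_ne_one hwv
    · rw [e, h.self] at huv; exact zero_ne_one huv
    · exact h1 (by rw [← e, ← add_assoc, add_self', zero_add])
  obtain ⟨φ, hφ1, hφ2⟩ := Submodule.exists_dual_map_eq_bot_of_notMem hnot inferInstance
  have hz : ∀ x ∈ Submodule.span (ZMod 2) ({u, w} : Set (ι → ZMod 2)), φ x = 0 := fun x hx =>
    (Submodule.mem_bot _).1 (hφ2 ▸ Submodule.mem_map_of_mem hx)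
  obtain ⟨z, hzφ⟩ : ∃ z, B z = φ := by
    refine (LinearMap.injective_iff_surjective_of_finrank_eq_finrank
      (Subspace.dual_finrank_eq (V := ι → ZMod 2)).symm).1 ?_ φ
    refine (injective_iff_map_eq_zero B).2 fun x hx => h.nd x fun y => ?_
    rw [hx]; rfl
  have zu : B z u = 0 := hzφ ▸ hz u (Submodule.subset_span (Set.mem_insert _ _))
  have zw : B z w = 0 := hzφ ▸ hz w (Submodule.subset_span (Set.mem_insert_of_mem _ rfl))
  have zv : B z v = 1 := by rw [hzφ]; exact (z2 _).resolve_left hφ1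
  obtain ⟨y, hy, yu, yv, yw⟩ : ∃ y, Q y = 1 ∧ B y u = 0 ∧ B y v = 1 ∧ B y w = 0 := by
    rcases z2 (Q z) with hq | hq
    · refine ⟨z + (u + (v + w)), ?_, ?_, ?_, ?_⟩ <;>
        simp only [h.add, map_add, LinearMap.add_apply, hq, hu, hv, hw, zu, zv, zw, huv, huw, hwv,
          h.self, h.symm v u, h.symm w u, h.symm v w] <;> decide
    · exact ⟨z, hq, zu, zv, zw⟩
  rw [delta_eq_of_orth h hf hu hv hy huv yv (by rw [h.symm, yu])
      (fun e => by rw [← e, huw] at yw; exact one_ne_zero yw),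
    delta_eq_of_orth h hf hw hv hy hwv yv (by rw [h.symm, yw])
      (fun e => by rw [← e, h.symm, huw] at yu; exact one_ne_zero yu)]

end

/-- The main criterion. -/
theorem principal (h : IsQF Q B) (hgen : Iso Q ≤ T Q B) {n : ℕ} (e : Fin (n + 2) → ι → ZMod 2)
    (ht : (ι → ZMod 2) → ℕ) (hcard : n + 2 = Fintype.card ι) (heQ : ∀ i, Q (e i) = 1)
    (hinj : ∀ x, (∀ i, B x (e i) = 0) → x = 0)
    (htree : ∀ i, i ≠ 0 → ∃ j, j < i ∧ B (e j) (e i) = 1)
    (hclos : ∀ u, Q u = 1 → (∃ i, u = e i) ∨ ∃ i, B u (e i) = 1 ∧ ht (u + e i) < ht u)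
    (f : ↥(Cfsg.Omega (ZMod 2) Q) → (ι → ZMod 2))
    (hf : ∀ a b, f (a * b) = f a + act Q (a : ↥(Cfsg.isometryGroup (ZMod 2) Q)) (f b)) :
    ∃ x, ∀ g, f g = act Q (g : ↥(Cfsg.isometryGroup (ZMod 2) Q)) x - x := by
  classical
  have hnb : ∀ i, ∃ j, B (e j) (e i) = 1 := by
    intro i
    by_cases hi : i = 0
    · obtain ⟨j, hj, hB⟩ := htree 1 (by simp)
      have : j = 0 := by
        rw [Fin.lt_def] at hj
        exact Fin.ext (by simpa using hj)
      exact ⟨1, by rw [hi, h.symm, ← this, hB]⟩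
    · obtain ⟨j, -, hB⟩ := htree i hi
      exact ⟨j, hB⟩
  choose nb hnb using hnb
  obtain ⟨x, hx⟩ : ∃ x, ∀ i, B x (e i) = delta B f (e i) (e (nb i)) := by
    let L : (ι → ZMod 2) →ₗ[ZMod 2] (Fin (n + 2) → ZMod 2) := LinearMap.pi fun i => B.flip (e i)
    have hL : Function.Surjective L := (LinearMap.injective_iff_surjective_of_finrank_eq_finrank
      (by simp [hcard])).1 ((injective_iff_map_eq_zero L).2 fun x hx => hinj x fun i =>
        congrFun hx i)
    obtain ⟨x, hx⟩ := hL fun i => delta B f (e i) (e (nb i))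
    exact ⟨x, fun i => congrFun hx i⟩
  refine ⟨x, fun g => ?_⟩
  rw [ZModModule.sub_eq_add]
  set f' : ↥(Cfsg.Omega (ZMod 2) Q) → (ι → ZMod 2) :=
    fun g => f g + (act Q (g : ↥(Cfsg.isometryGroup (ZMod 2) Q)) x + x) with hf'def
  suffices H : f' g = 0 by
    have := add_eq_zero_iff_eq_neg.1 H
    rwa [ZModModule.neg_eq_self] at this
  have hf' : ∀ a b, f' (a * b) = f' a + act Q (a : ↥(Cfsg.isometryGroup (ZMod 2) Q)) (f' b) := by
    intro a b
    simp only [hf'def, hf, Subgroup.coe_mul, map_mul, LinearEquiv.mul_apply, map_add]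
    have key : ∀ p q r t y : ι → ZMod 2, p + q + (r + y) = p + (t + y) + (q + (r + t)) := by
      intro p q r t y
      rw [show p + (t + y) + (q + (r + t)) = p + q + (r + y) + (t + t) by abel,
        ZModModule.add_self, add_zero]
    exact key _ _ _ _ _
  -- the scalars of the normalised crossed homomorphism vanish
  have hbase : ∀ i u, Q u = 1 → B u (e i) = 1 → delta B f' (e i) u = 0 := by
    intro i u hu hue
    have hd : delta B f' (e i) u = delta B f (e i) u + B x (e i) := by
      simp only [delta, hf'def, map_add, LinearMap.add_apply, act_pr h hu (heQ i) hue, map_smul,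
        LinearMap.smul_apply, smul_eq_mul, h.self, h.symm (e i) u, hue]
      rcases z2 (B x u) with a | a <;> rcases z2 (B x (e i)) with b | b <;> rw [a, b] <;>
        simp [add_assoc, add_comm, add_left_comm, CharTwo.add_self_eq_zero, add_cancel_self,
        ZModModule.add_self]
    rw [hd, hx, delta_unique h hf hu (heQ i) (heQ _) hue (hnb i), CharTwo.add_self_eq_zero]
  have hall : ∀ k v, ht v = k → Q v = 1 → ∀ u, Q u = 1 → B u v = 1 → delta B f' v u = 0 := by
    intro k
    induction k using Nat.strong_induction_on with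
    | _ k ih =>
    intro v hk hv u hu huv
    rcases hclos v hv with ⟨i, rfl⟩ | ⟨i, hi, hlt⟩
    · exact hbase i u hu huv
    have hw := Q_sum h hv (heQ i) hi
    have hwi : B (v + e i) (e i) = 1 := by rw [map_add, LinearMap.add_apply, hi, h.self, add_zero]
    have hv' : v + e i + e i = v := by rw [add_assoc, add_self', add_zero]
    obtain ⟨e1, -, e3⟩ := delta_sum h hf' hw (heQ i) hwi
    rw [hv'] at e3
    rw [ih _ (hk ▸ hlt) _ rfl hw _ (heQ i) (by rw [h.symm, hwi]),
      hbase i _ hw hwi, zero_add, ← e3] at e1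
    rw [delta_unique h hf' hu hv (heQ i) huv (by rw [h.symm, hi]), ← e1]
  -- hence it vanishes on all products of two transvections
  let K : Subgroup ↥(Cfsg.Omega (ZMod 2) Q) :=
    { carrier := {a | f' a = 0}
      one_mem' := map_one' h hf'
      mul_mem' := fun {a b} (ha : f' a = 0) (hb : f' b = 0) => show f' (a * b) = 0 by
        rw [hf', ha, hb, map_zero, add_zero]
      inv_mem' := fun {a} (ha : f' a = 0) => show f' a⁻¹ = 0 by
        rw [map_inv' h hf', ha, map_zero] }
  obtain ⟨E, hE⟩ : ∃ E, E = K.map (Cfsg.Omega (ZMod 2) Q).subtype := ⟨_, rfl⟩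
  have hedge : ∀ u v, Q u = 1 → Q v = 1 → B u v = 1 → tr Q B u * tr Q B v ∈ E := by
    intro u v hu hv huv
    rw [hE]
    refine ⟨pr Q B u v, ?_, coe_pr h hu hv huv⟩
    have a0 : delta B f' v u = 0 := hall _ v rfl hv u hu huv
    have b0 := (delta_sum h hf' hu hv huv).1
    rw [a0, hall _ u rfl hu v hv (by rw [h.symm, huv]), zero_add] at b0
    show f' (pr Q B u v) = 0
    rw [delta] at a0
    rw [value h hf' hu hv huv, ← b0, a0, zero_smul, zero_smul, add_zero]
  have hchain : ∀ {u v w}, Q v = 1 → tr Q B u * tr Q B v ∈ E → tr Q B v * tr Q B w ∈ E →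
      tr Q B u * tr Q B w ∈ E := by
    intro u v w hv h1 h2
    have gen : ∀ a b c : ↥(Cfsg.isometryGroup (ZMod 2) Q), b * b = 1 → a * c = a * b * (b * c) :=
      fun a b c hb => by rw [mul_assoc, ← mul_assoc b, hb, one_mul]
    rw [gen _ _ _ (tr_mul_self h hv)]
    exact E.mul_mem h1 h2
  have he0 : ∀ k (i : Fin (n + 2)), i.val = k → tr Q B (e i) * tr Q B (e 0) ∈ E := by
    intro k
    induction k using Nat.strong_induction_on with
    | _ k ih =>
    intro i hk
    by_cases hi : i = 0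
    · rw [hi, tr_mul_self h (heQ 0)]; exact E.one_mem
    obtain ⟨j, hj, hB⟩ := htree i hi
    exact hchain (heQ j) (hedge _ _ (heQ i) (heQ j) (by rw [h.symm, hB])) (ih _ (hk ▸ hj) j rfl)
  have hu0 : ∀ u, Q u = 1 → tr Q B u * tr Q B (e 0) ∈ E := by
    intro u hu
    rcases hclos u hu with ⟨i, rfl⟩ | ⟨i, hi, -⟩
    · exact he0 _ i rfl
    · exact hchain (heQ i) (hedge _ _ hu (heQ i) hi) (he0 _ i rfl)
  have huv : ∀ u v, Q u = 1 → Q v = 1 → tr Q B u * tr Q B v ∈ E := by
    intro u v hu hv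
    refine hchain (heQ 0) (hu0 u hu) ?_
    have := E.inv_mem (hu0 v hv)
    rwa [_root_.mul_inv_rev, tr_inv h hv, tr_inv h (heQ 0)] at this
  -- the subgroup of even products contains the commutator subgroup
  let S : Set ↥(Cfsg.isometryGroup (ZMod 2) Q) := tr Q B '' {u | Q u = 1}
  have hS : Subgroup.closure S = ⊤ := by
    rw [eq_top_iff]
    intro a _
    have : act Q a ∈ (Subgroup.closure S).map (act Q) := by
      refine (Subgroup.closure_le _).2 ?_ (hgen (act_mem a))
      rintro _ ⟨u, hu, rfl⟩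
      exact ⟨tr Q B u, Subgroup.subset_closure ⟨u, hu, rfl⟩, act_tr h hu⟩
    obtain ⟨b, hb, hbe⟩ := this
    exact OrthModels.rho_injective Q hbe ▸ hb
  let P := Subgroup.closure {a | ∃ u v, Q u = 1 ∧ Q v = 1 ∧ tr Q B u * tr Q B v = a}
  have hPE : P ≤ E := (Subgroup.closure_le _).2 fun a ⟨u, v, hu, hv, ha⟩ => ha ▸ huv u v hu hv
  have hPn : P.Normal := by
    refine ⟨fun a ha b => ?_⟩
    have key : ∀ w, Q w = 1 → P.map (MulAut.conj (tr Q B w)).toMonoidHom ≤ P := by
      intro w hw
      rw [Subgroup.map_le_iff_le_comap]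
      refine (Subgroup.closure_le _).2 ?_
      rintro _ ⟨u, v, hu, hv, rfl⟩
      show tr Q B w * (tr Q B u * tr Q B v) * (tr Q B w)⁻¹ ∈ P
      rw [tr_inv h hw, show tr Q B w * (tr Q B u * tr Q B v) * tr Q B w
        = (tr Q B w * tr Q B u) * (tr Q B v * tr Q B w) by group]
      exact Subgroup.mul_mem _ (Subgroup.subset_closure ⟨w, u, hw, hu, rfl⟩)
        (Subgroup.subset_closure ⟨v, w, hv, hw, rfl⟩)
    have hb : b ∈ Subgroup.closure S := hS ▸ Subgroup.mem_top b
    revert a
    induction hb using Subgroup.closure_induction_left with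
    | one => intro a ha; simpa using ha
    | mul_left s hs c _ ihc =>
      obtain ⟨w, hw, rfl⟩ := hs
      intro a ha
      rw [show tr Q B w * c * a * (tr Q B w * c)⁻¹
        = tr Q B w * (c * a * c⁻¹) * (tr Q B w)⁻¹ by group]
      exact key w hw ⟨_, ihc a ha, rfl⟩
    | inv_mul_cancel s hs c _ ihc =>
      obtain ⟨w, hw, rfl⟩ := hs
      intro a ha
      rw [tr_inv h hw, show tr Q B w * c * a * (tr Q B w * c)⁻¹
        = tr Q B w * (c * a * c⁻¹) * (tr Q B w)⁻¹ by group]
      exact key w hw ⟨_, ihc a ha, rfl⟩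
  haveI := hPn
  have hcl : ∀ a, QuotientGroup.mk' P a ∈ Subgroup.zpowers (QuotientGroup.mk' P (tr Q B (e 0))) := by
    intro a
    have : Subgroup.closure S
        ≤ (Subgroup.zpowers (QuotientGroup.mk' P (tr Q B (e 0)))).comap (QuotientGroup.mk' P) := by
      refine (Subgroup.closure_le _).2 ?_
      rintro _ ⟨u, hu, rfl⟩
      show QuotientGroup.mk' P (tr Q B u) ∈ Subgroup.zpowers (QuotientGroup.mk' P (tr Q B (e 0)))
      have e1 : tr Q B u * tr Q B (e 0) ∈ P :=
        Subgroup.subset_closure ⟨u, e 0, hu, heQ 0, rfl⟩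
      have : QuotientGroup.mk' P (tr Q B u) = (QuotientGroup.mk' P (tr Q B (e 0)))⁻¹ := by
        rw [eq_inv_iff_mul_eq_one, ← map_mul]
        exact (QuotientGroup.eq_one_iff _).2 e1
      rw [this]
      exact Subgroup.inv_mem _ (Subgroup.mem_zpowers _)
    exact this (hS ▸ Subgroup.mem_top a)
  have hcomm : commutator ↥(Cfsg.isometryGroup (ZMod 2) Q) ≤ P := by
    rw [commutator_def, Subgroup.commutator_le]
    intro a _ b _
    rw [← QuotientGroup.eq_one_iff, ← QuotientGroup.mk'_apply, map_commutatorElement,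
      commutatorElement_eq_one_iff_mul_comm]
    obtain ⟨m, hm⟩ := Subgroup.mem_zpowers_iff.1 (hcl a)
    obtain ⟨k, hk⟩ := Subgroup.mem_zpowers_iff.1 (hcl b)
    rw [← hm, ← hk]
    exact zpow_mul_comm _ m k
  have : (g : ↥(Cfsg.isometryGroup (ZMod 2) Q)) ∈ E := hPE (hcomm g.2)
  rw [hE] at this
  obtain ⟨q, hq, hqe⟩ := this
  rw [← Subtype.ext hqe]
  exact hq

end Cfsg.Agent.OmegaTwo
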